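import Cfsg.Agent.H526.Van.Chev

/-!
# T1 rows: `E₈(q)`, `E₇(q)`, `E₆(q)`, `F₄(q)` (`q` odd), `p ∣ q - 1` (`p` odd) or `p = 2`, `4 ∣ q - 1` (helper526)
-/

set_option autoImplicit false
set_option linter.unusedSectionVars false

open Cfsg

namespace Cfsg.Agent.H526.Van

open Cfsg.Lie Cfsg.Agent.ChevalleyStructure Cfsg.Agent.ChevalleyStructure.CoxeterGeomTypes
open Cfsg.Agent.Nodes Cfsg.Agent.Nodes.RGDChev Cfsg.Agent.H35.ExcIdx Cfsg.Agent.H62.PPChev
open Cfsg.Agent.H53.HC Cfsg.Agent.H53.HC.ExcRows Cfsg.Agent.H53.HC.ExcIM Cfsg.Agent.H620.PNorm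

universe u

theorem chk_E8 : Chk chevE8 [2, 3, 4, 6, 5, 4, 3, 2] ((7 : Fin 8) : ℕ) = true := by decide +kernel
theorem chk_E7 : Chk chevE7 [2, 2, 3, 4, 3, 2, 1] ((0 : Fin 7) : ℕ) = true := by decide +kernel
theorem chk_E6 : Chk chevE6 [1, 2, 2, 3, 2, 1] ((1 : Fin 6) : ℕ) = true := by decide +kernel
theorem chk_F4 : Chk chevF4 [1, 2, 3, 2] ((3 : Fin 4) : ℕ) = true := by decide +kernel

theorem num_E8 : num chevE8 ((7 : Fin 8) : ℕ) ≠ num chevE8 ((3 : Fin 8) : ℕ) := by decide +kernel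
theorem num_E7 : num chevE7 ((0 : Fin 7) : ℕ) ≠ num chevE7 ((3 : Fin 7) : ℕ) := by decide +kernel
theorem num_E6 : num chevE6 ((1 : Fin 6) : ℕ) ≠ num chevE6 ((3 : Fin 6) : ℕ) := by decide +kernel
theorem num_F4 : num chevF4 ((3 : Fin 4) : ℕ) ≠ num chevF4 ((2 : Fin 4) : ℕ) := by decide +kernel

variable {K : Type} [Field K] [Fintype K] {r f : ℕ} (hr : r.Prime) (hf : f ≠ 0) (hK : Fintype.card K = r ^ f) [CharP K r]

include hr hf hK in
theorem in_E8 : In hpE8.isCartan (XX chevE8 8 K) {3}ᶜ := by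
  have := finite_group (K := K) chevE8
  have D := data_E8_3 hr hf hK
  have h1 : In hpE8.isCartan (XX chevE8 8 K) ({2, 0} ∪ ({1} ∪ {4, 5, 6, 7})) := by
    obtain ⟨θ, hθ, -⟩ := in_A2 D (k₀ := 2) (k₁ := 0) (by decide +kernel) rfl
    refine In.union D ⟨θ, hθ⟩ (In.union D (in_node D 1 3 (by decide +kernel))
      (by rw [← range_k8]; exact in_chain D (by norm_num) k8 hk8) ?_) ?_
    · intro i hi i' hi'
      exact or8b i (by simpa using hi) i' (by simpa using hi')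
    · intro i hi i' hi'
      exact or8a i (by simpa using hi) i' (by simpa using hi')
  rw [← compl8] at h1
  exact h1

include hr hf hK in
theorem in_E7 : In hpE7.isCartan (XX chevE7 7 K) {3}ᶜ := by
  have := finite_group (K := K) chevE7
  have D := data_E7_3 hr hf hK
  have h1 : In hpE7.isCartan (XX chevE7 7 K) ({2, 0} ∪ ({1} ∪ {4, 5, 6})) := by
    obtain ⟨θ, hθ, -⟩ := in_A2 D (k₀ := 2) (k₁ := 0) (by decide +kernel) rfl
    refine In.union D ⟨θ, hθ⟩ (In.union D (in_node D 1 3 (by decide +kernel))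
      (by rw [← range_k7]; exact in_chain D (by norm_num) k7 hk7) ?_) ?_
    · intro i hi i' hi'
      exact or7b i (by simpa using hi) i' (by simpa using hi')
    · intro i hi i' hi'
      exact or7a i (by simpa using hi) i' (by simpa using hi')
  rw [← compl7] at h1
  exact h1

include hr hf hK in
theorem in_E6 : In hpE6.isCartan (XX chevE6 6 K) {3}ᶜ := by
  have := finite_group (K := K) chevE6
  have D := data_E6_3 hr hf hK
  have h1 : In hpE6.isCartan (XX chevE6 6 K) ({2, 0} ∪ ({4, 5} ∪ {1})) := by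
    obtain ⟨θ, hθ, -⟩ := in_A2 D (k₀ := 2) (k₁ := 0) (by decide +kernel) rfl
    obtain ⟨θ', hθ', -⟩ := in_A2 D (k₀ := 4) (k₁ := 5) (by decide +kernel) rfl
    refine In.union D ⟨θ, hθ⟩ (In.union D ⟨θ', hθ'⟩ (in_node D 1 3 (by decide +kernel)) ?_) ?_
    · intro i hi i' hi'
      exact or6b i (by simpa using hi) i' (by simpa using hi')
    · intro i hi i' hi'
      exact or6a i (by simpa using hi) i' (by simpa using hi')
  rw [← compl6] at h1
  exact h1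

include hr hf hK in
theorem in_F4 : In hpF4.isCartan (XX chevF4 4 K) {2}ᶜ := by
  have := finite_group (K := K) chevF4
  have D := data_F4_2 hr hf hK
  have h1 : In hpF4.isCartan (XX chevF4 4 K) ({1, 0} ∪ {3}) := by
    obtain ⟨θ, hθ, -⟩ := in_A2 D (k₀ := 1) (k₁ := 0) (by decide +kernel) rfl
    refine In.union D ⟨θ, hθ⟩ (in_node D 3 2 (by decide +kernel)) ?_
    intro i hi i' hi'
    exact or4 i (by simpa using hi) i' (by simpa using hi')
  rw [← compl4] at h1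
  exact h1

/-! ### the rows -/

variable {F : Type} [Field F] [Fintype F]

theorem vOrdP_E8 (hs : IsSimpleGroup ↥(chevE8.group F)) {p : ℕ} [hp : Fact p.Prime] (h2 : p ≠ 2)
    (hd : p ∣ Fintype.card F - 1) : VOrdP p ↥(chevE8.group F) := by
  obtain ⟨r, f, hr, hf, hF, hch⟩ := exists_prime_pow F
  have : Fact r.Prime := ⟨hr⟩
  exact vOrdP_tor (j := 7) (k := 3) hpE8 r (data_E8_3 hr hf hF).fin (in_E8 hr hf hF) num_E8 chk_E8 h2 hd

theorem vPow_E8 (hs : IsSimpleGroup ↥(chevE8.group F)) (hd : 4 ∣ Fintype.card F - 1) : VPow 2 ↥(chevE8.group F) := by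
  obtain ⟨r, f, hr, hf, hF, hch⟩ := exists_prime_pow F
  have : Fact r.Prime := ⟨hr⟩
  exact vPow_tor (j := 7) (k := 3) hpE8 r (data_E8_3 hr hf hF).fin (in_E8 hr hf hF) num_E8 chk_E8 hd

theorem vOrdP_E7 (hs : IsSimpleGroup ↥(chevE7.group F)) {p : ℕ} [hp : Fact p.Prime] (h2 : p ≠ 2)
    (hd : p ∣ Fintype.card F - 1) : VOrdP p ↥(chevE7.group F) := by
  obtain ⟨r, f, hr, hf, hF, hch⟩ := exists_prime_pow F
  have : Fact r.Prime := ⟨hr⟩
  exact vOrdP_tor (j := 0) (k := 3) hpE7 r (data_E7_3 hr hf hF).fin (in_E7 hr hf hF) num_E7 chk_E7 h2 hd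

theorem vPow_E7 (hs : IsSimpleGroup ↥(chevE7.group F)) (hd : 4 ∣ Fintype.card F - 1) : VPow 2 ↥(chevE7.group F) := by
  obtain ⟨r, f, hr, hf, hF, hch⟩ := exists_prime_pow F
  have : Fact r.Prime := ⟨hr⟩
  exact vPow_tor (j := 0) (k := 3) hpE7 r (data_E7_3 hr hf hF).fin (in_E7 hr hf hF) num_E7 chk_E7 hd

theorem vOrdP_E6 (hs : IsSimpleGroup ↥(chevE6.group F)) {p : ℕ} [hp : Fact p.Prime] (h2 : p ≠ 2)
    (hd : p ∣ Fintype.card F - 1) : VOrdP p ↥(chevE6.group F) := by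
  obtain ⟨r, f, hr, hf, hF, hch⟩ := exists_prime_pow F
  have : Fact r.Prime := ⟨hr⟩
  exact vOrdP_tor (j := 1) (k := 3) hpE6 r (data_E6_3 hr hf hF).fin (in_E6 hr hf hF) num_E6 chk_E6 h2 hd

theorem vPow_E6 (hs : IsSimpleGroup ↥(chevE6.group F)) (hd : 4 ∣ Fintype.card F - 1) : VPow 2 ↥(chevE6.group F) := by
  obtain ⟨r, f, hr, hf, hF, hch⟩ := exists_prime_pow F
  have : Fact r.Prime := ⟨hr⟩
  exact vPow_tor (j := 1) (k := 3) hpE6 r (data_E6_3 hr hf hF).fin (in_E6 hr hf hF) num_E6 chk_E6 hd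

/-- also for `q` even -/
theorem vOrdP_F4 (hs : IsSimpleGroup ↥(chevF4.group F)) {p : ℕ} [hp : Fact p.Prime] (h2 : p ≠ 2)
    (hd : p ∣ Fintype.card F - 1) : VOrdP p ↥(chevF4.group F) := by
  obtain ⟨r, f, hr, hf, hF, hch⟩ := exists_prime_pow F
  have : Fact r.Prime := ⟨hr⟩
  exact vOrdP_tor (j := 3) (k := 2) hpF4 r (data_F4_2 hr hf hF).fin (in_F4 hr hf hF) num_F4 chk_F4 h2 hd

theorem vPow_F4 (hs : IsSimpleGroup ↥(chevF4.group F)) (hd : 4 ∣ Fintype.card F - 1) : VPow 2 ↥(chevF4.group F) := by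
  obtain ⟨r, f, hr, hf, hF, hch⟩ := exists_prime_pow F
  have : Fact r.Prime := ⟨hr⟩
  exact vPow_tor (j := 3) (k := 2) hpF4 r (data_F4_2 hr hf hF).fin (in_F4 hr hf hF) num_F4 chk_F4 hd

end Cfsg.Agent.H526.Van
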