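import Cfsg.Agent.H526.Van.Chev
import Cfsg.Agent.H62.PPTwist
import Cfsg.Agent.H898.NotIn

/-!
# T1 for `²E₆(q)`, `p ∣ q - 1` (helper526)
-/

set_option autoImplicit false
set_option linter.unusedSectionVars false

open Cfsg

namespace Cfsg.Agent.H526.Van

open Cfsg.Lie Cfsg.Agent.ChevalleyStructure Cfsg.Agent.ChevalleyStructure.Elts
  Cfsg.Agent.ChevalleyStructure.RootVec Cfsg.Agent.ChevalleyStructure.RootVecTab
  Cfsg.Agent.ChevalleyStructure.NPerm Cfsg.Agent.ChevalleyStructure.CoxeterGeomTypes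
open Cfsg.Agent.Nodes Cfsg.Agent.Nodes.RGDChev Cfsg.Agent.H35.ExcIdx Cfsg.Agent.H62.PPChev
open CoxeterSystem Cfsg.Agent.ChevalleyStructure.CoxeterGeom Cfsg.Agent.Tits.Roots Cfsg.Agent.Tits.Core
  Cfsg.Agent.Tits.Exchange Cfsg.Agent.Nodes.Reps Cfsg.Agent.Nodes.BNOf Cfsg.Agent.Nodes.StabComb
  Cfsg.Agent.Nodes.Bruhat Cfsg.Agent.Nodes.OppDec Cfsg.Agent.Nodes.LeviDec
open Cfsg.Agent.ChevalleyStructure.TwE6Basic (hE6)
open Cfsg.Agent.ChevalleyStructure.TwE6BN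

universe u

namespace TwE6

variable {K : Type u} [Field K] {q : ℕ}

section pair

variable {i : Fin 4} {j j' : ℕ} (C : PairOK.{u} i j j')
include C

theorem nG_pair (t : K) : nG hE6 j t * nG hE6 j' t = (xG hE6 j t * xG hE6 j' t) *
    (xG hE6 (chevE6.neg j) (-t⁻¹) * xG hE6 (chevE6.neg j') (-t⁻¹)) * (xG hE6 j t * xG hE6 j' t) := by
  rw [nG_def, nG_def]
  have h1 : xG hE6 j t * xG hE6 j' t = xG hE6 j' t * xG hE6 j t := (C.comm1 t t).symm
  have h2 : xG hE6 j t * xG hE6 (chevE6.neg j') (-t⁻¹) = xG hE6 (chevE6.neg j') (-t⁻¹) * xG hE6 j t :=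
    (C.comm2 t (-t⁻¹)).symm
  have h3 : xG hE6 (chevE6.neg j) (-t⁻¹) * xG hE6 j' t = xG hE6 j' t * xG hE6 (chevE6.neg j) (-t⁻¹) :=
    (C.comm3 (-t⁻¹) t).symm
  calc xG hE6 j t * (xG hE6 (chevE6.neg j) (-t⁻¹) * xG hE6 j t) *
        (xG hE6 j' t * (xG hE6 (chevE6.neg j') (-t⁻¹) * xG hE6 j' t))
      = xG hE6 j t * xG hE6 (chevE6.neg j) (-t⁻¹) * (xG hE6 j t * xG hE6 j' t) *
          xG hE6 (chevE6.neg j') (-t⁻¹) * xG hE6 j' t := by group
    _ = xG hE6 j t * xG hE6 (chevE6.neg j) (-t⁻¹) * (xG hE6 j' t * xG hE6 j t) *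
          xG hE6 (chevE6.neg j') (-t⁻¹) * xG hE6 j' t := by rw [h1]
    _ = xG hE6 j t * (xG hE6 (chevE6.neg j) (-t⁻¹) * xG hE6 j' t) *
          (xG hE6 j t * xG hE6 (chevE6.neg j') (-t⁻¹)) * xG hE6 j' t := by group
    _ = xG hE6 j t * (xG hE6 j' t * xG hE6 (chevE6.neg j) (-t⁻¹)) *
          (xG hE6 (chevE6.neg j') (-t⁻¹) * xG hE6 j t) * xG hE6 j' t := by rw [h2, h3]
    _ = _ := by group

theorem nG_pair_mem {φ : K →+* K} (hφ : ∀ t, φ t = t ^ q) {t : K} (ht : t ^ q = t) :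
    nG hE6 j t * nG hE6 j' t ∈ twistedE6 K q := by
  have h0 : φ t = t := by rw [hφ, ht]
  have h1 : (-t⁻¹) ^ q = -t⁻¹ := by rw [← hφ, map_neg, map_inv₀, h0]
  have h2 := C.pos_mem_G (q := q) t
  rw [ht] at h2
  have h3 := C.neg_mem_G (q := q) (-t⁻¹)
  rw [h1] at h3
  rw [nG_pair C]
  exact mul_mem (mul_mem h2 h3) h2

theorem hG_pair_mem {φ : K →+* K} (hφ : ∀ t, φ t = t ^ q) {t : K} (ht : t ^ q = t) :
    hG hE6 j t * hG hE6 j' t ∈ twistedE6 K q := by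
  have h1 : (-1 : K) ^ q = -1 := by rw [← hφ, map_neg, map_one]
  have e : hG hE6 j t * hG hE6 j' t = (nG hE6 j t * nG hE6 j' t) * (nG hE6 j (-1) * nG hE6 j' (-1)) := by
    rw [hG_def, hG_def]
    have h2 : nG hE6 j' t * nG hE6 j (-1) = nG hE6 j (-1) * nG hE6 j' t := C.commN (-1) t
    calc nG hE6 j t * nG hE6 j (-1) * (nG hE6 j' t * nG hE6 j' (-1))
        = nG hE6 j t * (nG hE6 j (-1) * nG hE6 j' t) * nG hE6 j' (-1) := by group
      _ = nG hE6 j t * (nG hE6 j' t * nG hE6 j (-1)) * nG hE6 j' (-1) := by rw [h2]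
      _ = _ := by group
  rw [e]
  exact mul_mem (nG_pair_mem C hφ ht) (nG_pair_mem C hφ h1)

end pair

theorem hG_single_mem {i : Fin 4} {j : ℕ} (C : SingleOK.{u} i j) {φ : K →+* K} (hφ : ∀ t, φ t = t ^ q) {t : K}
    (ht : t ^ q = t) : hG hE6 j t ∈ twistedE6 K q := by
  have key : ∀ t : K, t ^ q = t → nG hE6 j t ∈ twistedE6 K q := by
    intro t ht
    have h0 : φ t = t := by rw [hφ, ht]
    have h1 : (-t⁻¹) ^ q = -t⁻¹ := by rw [← hφ, map_neg, map_inv₀, h0]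
    rw [nG_def]
    exact mul_mem (C.pos_mem_G ht) (mul_mem (C.neg_mem_G h1) (C.pos_mem_G ht))
  rw [hG_def]
  exact mul_mem (key t ht) (key _ (by rw [← hφ, map_neg, map_one]))

/-- the exponents: the coroot of the highest root -/
def c : ℕ → ℤ := fun i => ([1, 2, 2, 3, 2, 1] : List ℤ).getD i 0

/-- the order of the nodes -/
def L : List ℕ := [0, 5, 2, 4, 1, 3]

theorem L_lt : ∀ i ∈ L, i < chevE6.rank := by decide +kernel

theorem tor_mem {φ : K →+* K} (hφ : ∀ t, φ t = t ^ q) {s : Kˣ} (hs : s ^ q = s) : torL hE6 L c s ∈ twistedE6 K q := by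
  have h0 : ∀ m : ℤ, ((s ^ m : Kˣ) : K) ^ q = ((s ^ m : Kˣ) : K) := by
    intro m
    rw [← Units.val_pow_eq_pow_val]
    congr 1
    rw [← zpow_natCast, zpow_comm, zpow_natCast, hs]
  have e0 : chevE6.simple 0 = 56 := by decide +kernel
  have e5 : chevE6.simple 5 = 36 := by decide +kernel
  have e2 : chevE6.simple 2 = 42 := by decide +kernel
  have e4 : chevE6.simple 4 = 37 := by decide +kernel
  have e1 : chevE6.simple 1 = 46 := by decide +kernel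
  have e3 : chevE6.simple 3 = 39 := by decide +kernel
  have h1 := hG_pair_mem pair3 hφ (h0 1)
  have h2 := hG_pair_mem pair2 hφ (h0 2)
  have h3 := hG_single_mem single0 hφ (h0 2)
  have h4 := hG_single_mem single1 hφ (h0 3)
  have e : torL hE6 L c s = (hG hE6 56 ((s ^ (1 : ℤ) : Kˣ) : K) * hG hE6 36 ((s ^ (1 : ℤ) : Kˣ) : K)) *
      (hG hE6 42 ((s ^ (2 : ℤ) : Kˣ) : K) * hG hE6 37 ((s ^ (2 : ℤ) : Kˣ) : K)) *
      hG hE6 46 ((s ^ (2 : ℤ) : Kˣ) : K) * hG hE6 39 ((s ^ (3 : ℤ) : Kˣ) : K) := by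
    unfold torL L
    simp only [List.map_cons, List.map_nil, List.prod_cons, List.prod_nil, mul_one, e0, e1, e2, e3, e4, e5]
    have c0 : c 0 = 1 := rfl
    have c1 : c 1 = 2 := rfl
    have c2 : c 2 = 2 := rfl
    have c3 : c 3 = 3 := rfl
    have c4 : c 4 = 2 := rfl
    have c5 : c 5 = 1 := rfl
    rw [c0, c1, c2, c3, c4, c5]
    group
  rw [e]
  exact mul_mem (mul_mem (mul_mem h1 h2) h3) h4

/-- all exponents on the radical of the parabolic of `{1}ᶜ` are 1 or 2 -/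
theorem chk : ∀ ρ < chevE6.nroots, 0 < rt chevE6 ρ 1 →
    (L.map fun i => c i * chevE6.cartan i ρ).sum = 1 ∨ (L.map fun i => c i * chevE6.cartan i ρ).sum = 2 := by
  decide +kernel

theorem L_mem_diagonal (s : Kˣ) : torL hE6 L c s ∈ chevE6.diagonalSubgroup K :=
  torL_mem_diagonal RGDTwE6.hp L_lt c s

/-- the torus element of the twisted group -/
def tT {φ : K →+* K} (hφ : ∀ t, φ t = t ^ q) {s : Kˣ} (hs : s ^ q = s) : ↥(twistedE6 K q) :=
  ⟨torL hE6 L c s, tor_mem hφ hs⟩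

theorem tT_mem {φ : K →+* K} (hφ : ∀ t, φ t = t ^ q) {s : Kˣ} (hs : s ^ q = s) : tT hφ hs ∈ RGDTwE6.T K q := by
  refine Subgroup.mem_subgroupOf.2 ⟨L_mem_diagonal s, tor_mem hφ hs⟩

/-- no fixed points on the radical of the parabolic subgroup of `E₆` -/
theorem cent_E6 [Fintype K] {s : Kˣ} (hs : s ≠ 1) (hs2 : s ^ 2 ≠ 1) (u : ↥(chevE6.group K))
    (hu : u ∈ VJ CoxeterMatrix.E₆.toCoxeterSystem RGDTwE6.hp.isCartan (XX chevE6 6 K) {1}ᶜ)
    (hc : torL hE6 L c s * (u : GL chevE6.Idx K) = (u : GL chevE6.Idx K) * torL hE6 L c s) : u = 1 := by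
  classical
  obtain ⟨r, hr⟩ := CharP.exists K
  have : Fact r.Prime := ⟨CharP.char_is_prime K r⟩
  have R := rgd (K := K) RGDTwE6.hp CoxeterMatrix.E₆.toCoxeterSystem r
  have : Finite CoxeterMatrix.E₆.Group := by
    obtain ⟨f, hr', hF⟩ := FiniteField.card K r
    exact (data_E6_3 (K := K) hr' f.ne_zero hF).fin
  let t : ↥(chevE6.group K) := ⟨torL hE6 L c s, diagonal_le_group hE6 K (L_mem_diagonal s)⟩
  have ht : t ∈ TT chevE6 K := Subgroup.mem_subgroupOf.2 (L_mem_diagonal s)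
  refine cent_VJ R ht ?_ u hu (Subtype.ext hc)
  rintro x ⟨hx, -, i, hi, hi0⟩ v hv hcv
  obtain ⟨ρ, hρ, rfl⟩ := (isRoot_iff RGDTwE6.hp CoxeterMatrix.E₆.toCoxeterSystem x).1 hx
  have hij : i = 1 := by
    by_contra hne
    exact hi (by simpa using hne)
  subst hij
  have hv' : (v : GL chevE6.Idx K) ∈ chevE6.rootSubgroup K ρ := by
    rw [← XV_vec RGDTwE6.hp K hρ]
    exact hv
  obtain ⟨a, ha⟩ := (mem_rootSubgroup_iff hE6 ρ _).1 hv'
  set e := (L.map fun i => c i * chevE6.cartan i ρ).sum with he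
  have h1 : xG hE6 ρ (((s ^ e : Kˣ) : K) * a) = xG hE6 ρ a := by
    have h2 := torL_mul_xG hE6 c s hρ L L_lt a
    have h3 : torL hE6 L c s * (v : GL chevE6.Idx K) = (v : GL chevE6.Idx K) * torL hE6 L c s :=
      congrArg Subtype.val hcv
    rw [ha, h2] at h3
    exact mul_right_cancel h3
  have h4 := xG_injective hE6 hρ h1
  have h5 : (((s ^ e : Kˣ) : K) - 1) * a = 0 := by linear_combination h4
  have h6 : s ^ e ≠ 1 := by
    rcases chk ρ hρ (by simpa [vec_apply] using hi0) with h8 | h8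
    · rw [he, h8, zpow_one]; exact hs
    · rw [he, h8]
      intro h9
      exact hs2 (by exact_mod_cast h9)
  rcases mul_eq_zero.1 h5 with h7 | h7
  · exfalso
    apply h6
    apply Units.ext
    rw [Units.val_one]
    exact sub_eq_zero.1 h7
  · subst h7
    apply Subtype.ext
    rw [ha, xG_zero]
    rfl

/-- the radical of the twisted group lies in that of `E₆` -/
theorem VJ_le (φ : K →+* K) : VJ CoxeterMatrix.F₄.toCoxeterSystem RGDTwE6.isCartan (RGDTwE6.X φ q) {0}ᶜ ≤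
    ((VJ CoxeterMatrix.E₆.toCoxeterSystem RGDTwE6.hp.isCartan (XX chevE6 6 K) {1}ᶜ).map
      (chevE6.group K).subtype).comap (twistedE6 K q).subtype := by
  refine RGD.Sup_le ?_
  rintro z ⟨hz, -, i, hi, hi0⟩ g hg
  have hi' : i = 0 := by
    by_contra hne
    exact hi (by simpa using hne)
  subst hi'
  rw [Subgroup.mem_comap]
  have h1 : (g : GL chevE6.Idx K) ∈ RGDFold.R chevE6 RGDTwE6.hp K RGDTwE6.J (TwE6Basic.sg φ) z := hg
  have h2 := (Subgroup.mem_inf.1 h1).1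
  refine (Subgroup.closure_le _).2 ?_ h2
  rintro _ ⟨ρ, ⟨hρ, hV⟩, a, rfl⟩
  refine ⟨⟨xG hE6 ρ a, xG_mem_group hE6 ρ a⟩, ?_, rfl⟩
  have hroot : IsRoot CoxeterMatrix.E₆.toCoxeterSystem RGDTwE6.hp.isCartan (vec chevE6 6 ρ) :=
    isRoot_vec RGDTwE6.hp _ hρ
  have hpos : 0 < vec chevE6 6 ρ 1 := by
    have h3 := congrFun hV 0
    have h4 : RGDFold.V chevE6 RGDTwE6.J ρ 0 = rt chevE6 ρ 1 := by
      simp [RGDFold.V, RGDTwE6.J]
    rw [h4] at h3
    rw [vec_apply]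
    change 0 < rt chevE6 ρ 1
    rw [h3]
    exact hi0
  refine RGD.le_Sup (S := NotJ CoxeterMatrix.E₆.toCoxeterSystem RGDTwE6.hp.isCartan {1}ᶜ)
    (z := vec chevE6 6 ρ) ⟨hroot, nonneg_of_pos_apply hroot (k := 1) hpos, 1, by simp, hpos⟩ ?_
  rw [Subgroup.mem_subgroupOf, XV_vec RGDTwE6.hp K hρ]
  exact xG_mem_rootSubgroup hE6 ρ a

/-- no fixed points on the radical of the twisted group -/
theorem cent_tw [Fintype K] {φ : K →+* K} (hφ : ∀ t, φ t = t ^ q) {s : Kˣ} (hsq : s ^ q = s) (hs : s ≠ 1)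
    (hs2 : s ^ 2 ≠ 1) :
    ∀ v ∈ VJ CoxeterMatrix.F₄.toCoxeterSystem RGDTwE6.isCartan (RGDTwE6.X φ q) {0}ᶜ,
      tT hφ hsq * v = v * tT hφ hsq → v = 1 := by
  intro v hv hc
  obtain ⟨u, hu, huv⟩ := VJ_le φ hv
  have huv' : (u : GL chevE6.Idx K) = (v : GL chevE6.Idx K) := huv
  have h1 := cent_E6 hs hs2 u hu (by
    rw [huv']
    exact congrArg Subtype.val hc)
  apply Subtype.ext
  rw [← huv', h1]
  rfl

open Cfsg.Agent.H53.HC Cfsg.Agent.H53.HC.ExcRows Cfsg.Agent.H53.HC.ExcIM Cfsg.Agent.H620.PNorm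
open Cfsg.Agent.H62.PPTwist.E6 (w w_refl nodup_LF4)

theorem sum_ne : ((Cfsg.Agent.ParSys.RootExc.LF4.filter fun v => 0 < v 0).map w).sum ≠
    ((Cfsg.Agent.ParSys.RootExc.LF4.filter fun v => 0 < v 2).map w).sum := by decide +kernel

section rows

variable {K : Type} [Field K] {q : ℕ} {r f : ℕ} (hr : r.Prime) (hf : f ≠ 0) (hq : q = r ^ f) [Fintype K] [CharP K r]
  {φ : K →+* K} (hφ : ∀ x, φ x = x ^ q) (hqq : ∀ t : K, (t ^ q) ^ q = t) (hK : Fintype.card K = q ^ 2)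

theorem finite_tw : Finite ↥(twistedE6 K q) := by
  have : Finite (GL chevE6.Idx K) := by
    have : Finite (Matrix chevE6.Idx chevE6.Idx K) := inferInstance
    infer_instance
  infer_instance

include hr hf hq hqq hK hφ in
theorem vz {s : Kˣ} (hsq : s ^ q = s) (hs : s ≠ 1) (hs2 : s ^ 2 ≠ 1) : H713.VZ ↥(twistedE6 K q) (tT hφ hsq) ∧
    ∃ a b : ↥(twistedE6 K q), a * b ≠ b * a := by
  have : Finite ↥(twistedE6 K q) := finite_tw
  have : Fact r.Prime := ⟨hr⟩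
  have D := data_TwE6_2 hr hf hq hφ hqq hK
  have := D.fin
  have hq1 : 1 < q := by rw [hq]; exact two_le hr hf
  have hIn : In RGDTwE6.isCartan (RGDTwE6.X φ q) {2}ᶜ := by
    have h1 : In RGDTwE6.isCartan (RGDTwE6.X φ q) ({1, 0} ∪ {3}) := by
      obtain ⟨θ, hθ, -⟩ := in_A2 D (k₀ := 1) (k₁ := 0) (by decide +kernel) rfl
      refine In.union D ⟨θ, hθ⟩ (in_node D 3 2 (by decide +kernel)) ?_
      intro i hi i' hi'
      exact or4 i (by simpa using hi) i' (by simpa using hi')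
    rw [← compl4] at h1
    exact h1
  have cX := Cfsg.Agent.GpExc.TwCard.card_simple hφ hqq hq1 hK
  have hcV := fun i => H62.PPTwist.card_VJ D.rgd (L := Cfsg.Agent.ParSys.RootExc.LF4)
    Cfsg.Agent.ParSys.RootExc.posRoots_F4 nodup_LF4 (q := q) w w_refl
    (by
      intro i
      rw [cX i]
      congr 1
      revert i
      decide +kernel) i
  refine ⟨vz_of_cusp (K := {2}ᶜ) (J := {0}ᶜ) D.rgd D.gg hIn (Or.inr ⟨?_, ?_⟩)
    (LJ_le_PJ (T_le_LJ (tT_mem hφ hsq))) (cent_tw hφ hsq hs hs2), ?_⟩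
  · rw [Set.ncard_compl, Set.ncard_compl, Set.ncard_singleton, Set.ncard_singleton]
  · rw [hcV 0, hcV 2]
    intro h3
    exact sum_ne (Nat.pow_right_injective hq1 h3)
  · have h1 : 1 < Nat.card (RGDTwE6.X φ q (sr 0)) := by
      rw [D.size 0]
      change 1 < fE q 0
      exact hq1
    have h2 : RGDTwE6.X φ q (sr 0) ≠ ⊥ := (Subgroup.one_lt_card_iff_ne_bot _).1 h1
    obtain ⟨⟨v, hv⟩, hv0⟩ := (Subgroup.ne_bot_iff_exists_ne_one).1 h2
    have hv1 : v ≠ 1 := fun h => hv0 (Subtype.ext h)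
    refine ⟨tT hφ hsq, v, fun hc => hv1 (cent_tw hφ hsq hs hs2 v ?_ hc)⟩
    refine RGD.le_Sup (S := NotJ CoxeterMatrix.F₄.toCoxeterSystem RGDTwE6.isCartan {0}ᶜ) (z := sr 0)
      ⟨isRoot_sr _ _ 0, sr_nonneg 0, 0, by simp, by rw [sr_self]; norm_num⟩ hv

include hr hf hq hqq hK hφ in
theorem vOrdP_aux (hs : IsSimpleGroup ↥(twistedE6 K q)) {p : ℕ} [hp : Fact p.Prime] (h2 : p ≠ 2) (hd : p ∣ q - 1) :
    VOrdP p ↥(twistedE6 K q) := by
  have : Finite ↥(twistedE6 K q) := finite_tw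
  have hd' : p ∣ Fintype.card K - 1 := by
    rw [hK]
    have := Nat.sub_dvd_pow_sub_pow q 1 2
    rw [one_pow] at this
    exact hd.trans this
  have hq1 : 1 < q := by rw [hq]; exact two_le hr hf
  obtain ⟨s, hsp⟩ := exists_unit_order hd'
  obtain ⟨hs1, hs2⟩ := unit_ne h2 hsp
  have hsq : s ^ q = s := by
    have h3 : s ^ (q - 1) = 1 := orderOf_dvd_iff_pow_eq_one.1 (by rw [hsp]; exact hd)
    obtain ⟨m, hm⟩ : ∃ m, q = m + 1 := ⟨q - 1, by omega⟩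
    rw [hm] at h3 ⊢
    rw [Nat.add_sub_cancel] at h3
    rw [pow_succ, h3, one_mul]
  obtain ⟨hvz, hna⟩ := vz hr hf hq hφ hqq hK hsq hs1 hs2
  refine vOrdP_of_pow (eq_one_of_center hna ?_) hvz
  rw [Subgroup.mem_center_iff]
  intro g
  apply Subtype.ext
  exact torL_pow_comm hE6 L_lt c s (by rw [← hsp, pow_orderOf_eq_one]) g.1 (H898.NotIn.twisted_le_group q g.2)

include hr hf hq hqq hK hφ in
theorem vPow_aux (hs : IsSimpleGroup ↥(twistedE6 K q)) (hd : 4 ∣ q - 1) : VPow 2 ↥(twistedE6 K q) := by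
  have : Finite ↥(twistedE6 K q) := finite_tw
  have hd' : 4 ∣ Fintype.card K - 1 := by
    rw [hK]
    have := Nat.sub_dvd_pow_sub_pow q 1 2
    rw [one_pow] at this
    exact hd.trans this
  have hq1 : 1 < q := by rw [hq]; exact two_le hr hf
  obtain ⟨s, hsp⟩ := exists_unit_four hd'
  obtain ⟨hs1, hs2⟩ := unit_ne_four hsp
  have hsq : s ^ q = s := by
    have h3 : s ^ (q - 1) = 1 := orderOf_dvd_iff_pow_eq_one.1 (by rw [hsp]; exact hd)
    obtain ⟨m, hm⟩ : ∃ m, q = m + 1 := ⟨q - 1, by omega⟩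
    rw [hm] at h3 ⊢
    rw [Nat.add_sub_cancel] at h3
    rw [pow_succ, h3, one_mul]
  obtain ⟨hvz, hna⟩ := vz hr hf hq hφ hqq hK hsq hs1 hs2
  refine vPow_two_of_pow (eq_one_of_center hna ?_) hvz
  rw [Subgroup.mem_center_iff]
  intro g
  apply Subtype.ext
  exact torL_pow_comm hE6 L_lt c s (by rw [← hsp, pow_orderOf_eq_one]) g.1 (H898.NotIn.twisted_le_group q g.2)

end rows

end TwE6

open Cfsg.Agent.H53.HC.ExcIM Cfsg.Agent.H620.PNorm

/-- the parameters of `²E₆(q)` -/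
theorem exists_param {K : Type} [Field K] [Fintype K] {q : ℕ} (hq : IsPrimePow q) (hK : Fintype.card K = q ^ 2) :
    ∃ (r f : ℕ), r.Prime ∧ f ≠ 0 ∧ q = r ^ f ∧ CharP K r := by
  obtain ⟨r, f, hr, hf, hqf⟩ := (isPrimePow_nat_iff q).1 hq
  refine ⟨r, f, hr, hf.ne', hqf.symm, ?_⟩
  obtain ⟨r', g, hr', hg, hK', hch⟩ := exists_prime_pow K
  have h1 : r' = r := by
    have h2 : r' ∣ r ^ (f * 2) := by
      rw [pow_mul, hqf, ← hK, hK']
      exact dvd_pow_self _ hg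
    exact (Nat.prime_dvd_prime_iff_eq hr' hr).1 (hr'.dvd_of_dvd_pow h2)
  rwa [h1] at hch

theorem vOrdP_TwE6 {K : Type} [Field K] [Fintype K] {q : ℕ} (hq : IsPrimePow q) (hK : Fintype.card K = q ^ 2)
    (hs : IsSimpleGroup ↥(twistedE6 K q)) {p : ℕ} [hp : Fact p.Prime] (h2 : p ≠ 2) (hd : p ∣ q - 1) :
    VOrdP p ↥(twistedE6 K q) := by
  obtain ⟨r, f, hr, hf, hqf, hch⟩ := exists_param hq hK
  obtain ⟨φ, hφ, hqq⟩ := Cfsg.Agent.ChevalleyStructure.TwE6Basic.exists_frob hq hK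
  exact TwE6.vOrdP_aux hr hf hqf hφ hqq hK hs h2 hd

theorem vPow_TwE6 {K : Type} [Field K] [Fintype K] {q : ℕ} (hq : IsPrimePow q) (hK : Fintype.card K = q ^ 2)
    (hs : IsSimpleGroup ↥(twistedE6 K q)) (hd : 4 ∣ q - 1) : VPow 2 ↥(twistedE6 K q) := by
  obtain ⟨r, f, hr, hf, hqf, hch⟩ := exists_param hq hK
  obtain ⟨φ, hφ, hqq⟩ := Cfsg.Agent.ChevalleyStructure.TwE6Basic.exists_frob hq hK
  exact TwE6.vPow_aux hr hf hqf hφ hqq hK hs hd

end Cfsg.Agent.H526.Van
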